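import Cfsg.Agent.H660.TripTool
import Cfsg.Agent.HN.Red
import Cfsg.Agent.HN.A12Group
import Cfsg.Agent.S2056

/-!
# S3988: the row `HN` (helper660)

* `p = 3, 5, 7, 11`: `A12` is a proper subgroup;
* `p = 19`: `x y` of order 8, `y z y⁻¹ t` of order 3, the product has order 19.
-/

set_option autoImplicit false

namespace Cfsg.Agent.H660.RowHN

open Cfsg Cfsg.Agent.H562.PQR Cfsg.Agent.H660.TripTool
open Cfsg.Agent.Lib.PackMat Cfsg.Agent.Lib.PackMatGroup Cfsg.Agent.Lib.PackMatMul
open Cfsg.Agent.HN.RepData Cfsg.Agent.HN.Rep Cfsg.Agent.HN.Red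

theorem chk8 : ordC C L 0 [2] [false, false, false] = true := by decide +kernel
theorem chk3 : ordC C L 2 [4, 3, 6] [true] = true := by decide +kernel
theorem chk19 : ordC C L 0 [2, 2, 4, 3, 6] [false, false, true, true] = true := by decide +kernel

theorem ord8 : (evG LG (0 :: [2])) ^ bval [false, false, false] 1 = 1 ∧ evG LG (0 :: [2]) ≠ 1 :=
  ordC_spec hgood one_lt codesR chk8
theorem ord3 : (evG LG (2 :: [4, 3, 6])) ^ bval [true] 1 = 1 ∧ evG LG (2 :: [4, 3, 6]) ≠ 1 :=
  ordC_spec hgood one_lt codesR chk3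
theorem ord19 : (evG LG (0 :: [2, 2, 4, 3, 6])) ^ bval [false, false, true, true] 1 = 1 ∧
    evG LG (0 :: [2, 2, 4, 3, 6]) ≠ 1 := ordC_spec hgood one_lt codesR chk19

/-- the element of order 8 -/
noncomputable def u : Spor.HN := evG gens [0, 2]

/-- the element of order 3 -/
noncomputable def v : Spor.HN := evG gens [2, 4, 3, 6]

section

variable [IsSimpleGroup Spor.HN]

theorem u_pow : u ^ 2 ^ 3 = 1 := by
  apply Cfsg.Agent.HN.A12Group.rho_injective
  rw [map_pow, map_one, show rho u = evG LG [0, 2] from rho_word _]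
  exact ord8.1

theorem v_pow : v ^ 3 ^ 1 = 1 := by
  apply Cfsg.Agent.HN.A12Group.rho_injective
  rw [map_pow, map_one, show rho v = evG LG [2, 4, 3, 6] from rho_word _]
  exact ord3.1

theorem order_uv : orderOf (u * v) = 19 := by
  have : Fact (Nat.Prime 19) := ⟨by norm_num⟩
  have h : u * v = evG gens [0, 2, 2, 4, 3, 6] := (evG_append _ _ _).symm
  have h3 : rho (u * v) = evG LG [0, 2, 2, 4, 3, 6] := by rw [h]; exact rho_word _
  refine orderOf_eq_prime ?_ fun h0 => ord19.2 ?_
  · apply Cfsg.Agent.HN.A12Group.rho_injective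
    rw [map_pow, map_one, h3]
    exact ord19.1
  · rw [← h3, h0, map_one]

end

theorem mult : Cfsg.Agent.H80.Fpf.MultDvd Spor.HN 1 :=
  Cfsg.Agent.H80.Fpf.multDvd_of_cyclic one_ne_zero Cfsg.Agent.S2056.result

theorem trip19 : TripABC 2 3 19 Spor.HN := by
  have hs : IsSimpleGroup Spor.HN := Cfsg.Agent.S1701.result.1
  exact tripABC_of mult (fun s hs h => absurd (Nat.dvd_one.1 h) hs.ne_one) (by norm_num) (by norm_num) (by norm_num)
    (by norm_num) (by norm_num) (by norm_num) u_pow v_pow order_uv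

/-- **the row** -/
theorem row_HN : RowOdd Spor.HN := by
  intro p hp hp2 hd
  have hs : IsSimpleGroup Spor.HN := Cfsg.Agent.S1701.result.1
  have hc : Nat.card Spor.HN = 273030912000000 := Cfsg.Agent.S1701.result.2
  have hfin : Finite Spor.HN := Nat.finite_of_card_ne_zero (by rw [hc]; norm_num)
  rw [hc] at hd
  have h1 : p = 2 ∨ p ∣ (12).factorial ∨ p = 19 := by
    have h2 : (273030912000000 : ℕ) = 2 ^ 14 * (3 ^ 6 * 5 ^ 6 * 7 * 11) * 19 := by norm_num
    rw [h2] at hd
    rcases hp.dvd_mul.1 hd with hd | h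
    swap; · exact Or.inr (Or.inr ((Nat.prime_dvd_prime_iff_eq hp (by norm_num)).1 h))
    rcases hp.dvd_mul.1 hd with hd | hd
    · exact Or.inl ((Nat.prime_dvd_prime_iff_eq hp Nat.prime_two).1 (hp.dvd_of_dvd_pow hd))
    have h3 : (12).factorial = 479001600 := by decide
    rw [h3]
    rcases hp.dvd_mul.1 hd with hd | h
    swap; · exact Or.inr (Or.inl (h.trans (by norm_num)))
    rcases hp.dvd_mul.1 hd with hd | h
    swap; · exact Or.inr (Or.inl (h.trans (by norm_num)))
    rcases hp.dvd_mul.1 hd with hd | h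
    swap; · exact Or.inr (Or.inl ((hp.dvd_of_dvd_pow h).trans (by norm_num)))
    exact Or.inr (Or.inl ((hp.dvd_of_dvd_pow hd).trans (by norm_num)))
  rcases h1 with h1 | h1 | rfl
  · exact absurd h1 hp2
  · obtain ⟨K, ⟨e⟩⟩ := Cfsg.Agent.HN.A12Group.exists_alternating
    exact Or.inl (notMin_of_alt (by norm_num) hp hp2 h1 e (by rw [hc]; decide))
  · exact Or.inr ⟨2, 3, 19, by norm_num, by norm_num, trip19⟩

end Cfsg.Agent.H660.RowHN
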