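import Cfsg.Agent.H562.PQR.Iface

/-!
# S3988: tools for the sporadic rows (helper660)

* `tripABC_of` : `x` with `x ^ a ^ k = 1`, `y` with `y ^ b ^ l = 1`, `x * y` of order `c`: a triple of type `(a, b, c)`;
* `notMin_alt` : a subgroup (or an embedded group) `A_n`, `5 ≤ n`.
-/

set_option autoImplicit false

namespace Cfsg.Agent.H660.TripTool

open Cfsg Cfsg.Agent.H562.PQR

universe u v

variable {S : Type v} [Group S]

/-- a triple from the orders -/
theorem tripABC_of {m a b c k l : ℕ} (hm : Cfsg.Agent.H80.Fpf.MultDvd S m)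
    (hm' : ∀ s : ℕ, s.Prime → s ∣ m → s = 2 ∨ s = a ∨ s = b ∨ s = c)
    (ha : a.Prime) (hb : b.Prime) (hc : c.Prime) (hab : a ≠ b) (hac : a ≠ c) (hbc : b ≠ c) {x y : S}
    (hx : x ^ a ^ k = 1) (hy : y ^ b ^ l = 1) (hxy : orderOf (x * y) = c) : TripABC a b c S := by
  have hx1 : x ≠ 1 := by
    intro h
    rw [h, one_mul] at hxy
    have h1 := orderOf_dvd_of_pow_eq_one hy
    rw [hxy] at h1
    exact hbc ((Nat.prime_dvd_prime_iff_eq hc hb).1 (hc.dvd_of_dvd_pow h1)).symm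
  have hy1 : y ≠ 1 := by
    intro h
    rw [h, mul_one] at hxy
    have h1 := orderOf_dvd_of_pow_eq_one hx
    rw [hxy] at h1
    exact hac ((Nat.prime_dvd_prime_iff_eq hc ha).1 (hc.dvd_of_dvd_pow h1)).symm
  obtain ⟨i, -, hi⟩ := (Nat.dvd_prime_pow ha).1 (orderOf_dvd_of_pow_eq_one hx)
  obtain ⟨j, -, hj⟩ := (Nat.dvd_prime_pow hb).1 (orderOf_dvd_of_pow_eq_one hy)
  exact TripABC.of_mult hm hm' ha hb hc hab hac hbc ⟨hx1, i, hi⟩ ⟨hy1, j, hj⟩
    (PE.of_orderOf hc (by rw [orderOf_inv, hxy]) : PE c (x * y)⁻¹) (mul_inv_cancel _)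

/-- alternating groups are not commutative -/
theorem ncomm_alt {n : ℕ} (hn : 4 ≤ n) : ∃ x y : alternatingGroup (Fin n), x * y ≠ y * x := by
  let i : Fin 4 → Fin n := Fin.castLE hn
  have hi : Function.Injective i := Fin.castLE_injective hn
  have h3 : ∀ a b c : Fin 4, a ≠ b → b ≠ c → Equiv.swap (i a) (i b) * Equiv.swap (i b) (i c) ∈
      alternatingGroup (Fin n) := by
    intro a b c hab hbc
    rw [Equiv.Perm.mem_alternatingGroup, map_mul, Equiv.Perm.sign_swap (hi.ne hab), Equiv.Perm.sign_swap (hi.ne hbc)]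
    rfl
  refine ⟨⟨_, h3 0 1 2 (by decide) (by decide)⟩, ⟨_, h3 0 1 3 (by decide) (by decide)⟩, fun h => ?_⟩
  have e : ∀ a b c : Fin 4, Equiv.swap (i a) (i b) (i c) = i (Equiv.swap a b c) := by
    intro a b c
    exact (hi.map_swap a b c).symm
  have h2 : (Equiv.swap (i 0) (i 1) * Equiv.swap (i 1) (i 2)) * (Equiv.swap (i 0) (i 1) * Equiv.swap (i 1) (i 3)) =
      (Equiv.swap (i 0) (i 1) * Equiv.swap (i 1) (i 3)) * (Equiv.swap (i 0) (i 1) * Equiv.swap (i 1) (i 2)) :=
    congrArg Subtype.val h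
  have h4 := congrArg (fun t : Equiv.Perm (Fin n) => t (i 2)) h2
  simp only [Equiv.Perm.mul_apply, e] at h4
  exact absurd (hi h4) (by decide)

theorem card_alt {n : ℕ} (hn : 2 ≤ n) : 2 * Nat.card (alternatingGroup (Fin n)) = n.factorial := by
  have : Nontrivial (Fin n) := Fin.nontrivial_iff_two_le.2 hn
  have h2 := two_mul_nat_card_alternatingGroup (α := Fin n)
  rwa [Nat.card_perm, Nat.card_fin] at h2

/-- a section `A_n` of a proper subgroup -/
theorem notMin_alt [Finite S] {n : ℕ} (hn : 5 ≤ n) {p : ℕ} (hp : p.Prime) (hp2 : p ≠ 2) (hd : p ∣ n.factorial)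
    {K : Type u} [Group K] [Finite K] (f : K →* S) (g : K →* alternatingGroup (Fin n))
    (hg : Function.Surjective g) (hfg : f.ker ≤ g.ker) (hlt : Nat.card K < Nat.card S) : NotMin p S := by
  have hs : IsSimpleGroup ↥(alternatingGroup (Fin n)) :=
    alternatingGroup.isSimpleGroup (by rw [Nat.card_fin]; exact hn)
  have hd' : p ∣ Nat.card (alternatingGroup (Fin n)) := by
    rw [← card_alt (by omega)] at hd
    exact (hp.dvd_mul.1 hd).resolve_left fun h => hp2 ((Nat.prime_dvd_prime_iff_eq hp Nat.prime_two).1 h)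
  exact NotMin.of_hom_lt (ncomm_alt (by omega)) hp hd' f g hg hfg hlt

/-- a proper subgroup `A_n` -/
theorem notMin_of_alt [Finite S] {n : ℕ} (hn : 5 ≤ n) {p : ℕ} (hp : p.Prime) (hp2 : p ≠ 2) (hd : p ∣ n.factorial)
    {K : Subgroup S} (e : K ≃* alternatingGroup (Fin n)) (hlt : n.factorial < 2 * Nat.card S) : NotMin p S := by
  have h1 := card_alt (n := n) (by omega)
  have h2 := Nat.card_congr e.toEquiv
  refine notMin_alt hn hp hp2 hd K.subtype e.toMonoidHom e.surjective ?_ (by omega)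
  rw [(MonoidHom.ker_eq_bot_iff _).2 (Subgroup.subtype_injective _)]
  exact bot_le

end Cfsg.Agent.H660.TripTool
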